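import Mathlib

/-!
# The arithmetic of subspace transitivity
-/

set_option autoImplicit false

namespace Cfsg.Agent.Lib.EqOrd

theorem two_pow_aux (m : ℕ) : m + 6 < 2 ^ (m + 3) := by
  induction m with
  | zero => norm_num
  | succ m ih =>
    have : 2 ^ (m + 1 + 3) = 2 * 2 ^ (m + 3) := by ring
    omega

theorem arith {p n c k : ℕ} (hp : p.Prime) (hn : 3 ≤ n)
    (h1 : c * ((p ^ 2 - 1) * (p ^ 2 - p)) = (p ^ n - 1) * (p ^ n - p))
    (h2 : c * (p - 1) * k = (p ^ n - 1) * n) : n = 3 ∨ (n = 5 ∧ p = 2) := by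
  have hp2 := hp.two_le
  obtain ⟨u, rfl⟩ : ∃ u, p = u + 1 := ⟨p - 1, by omega⟩
  have hu : 1 ≤ u := by omega
  set p := u + 1 with hpdef
  obtain ⟨a, ha⟩ : ∃ a, p ^ n = a + 1 := ⟨p ^ n - 1, by
    have : 0 < p ^ n := by positivity
    omega⟩
  obtain ⟨B, hB⟩ : ∃ B, p ^ (n - 1) = B + 1 := ⟨p ^ (n - 1) - 1, by
    have : 0 < p ^ (n - 1) := by positivity
    omega⟩
  have hpn : p ^ n = p * p ^ (n - 1) := by
    rw [← pow_succ']
    congr 1
    omega
  have ha0 : 0 < a := by
    have : p ^ 1 ≤ p ^ n := Nat.pow_le_pow_right (by omega) (by omega)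
    have h3 : p ^ 1 = p := pow_one p
    omega
  have e1 : p ^ 2 - 1 = u * (p + 1) := by
    have : p ^ 2 = u * (p + 1) + 1 := by rw [hpdef]; ring
    omega
  have e2 : p ^ 2 - p = p * u := by
    have : p ^ 2 = p * u + p := by rw [hpdef]; ring
    omega
  have e3 : p ^ n - 1 = a := by omega
  have e4 : p ^ n - p = p * B := by
    have : p ^ n = p * B + p := by rw [hpn, hB]; ring
    omega
  have e5 : p - 1 = u := by omega
  rw [e1, e2, e3, e4] at h1
  rw [e3, e5] at h2
  have h3 : c * (u * (p + 1)) * u = a * B := by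
    have hp0 : 0 < p := by omega
    apply Nat.eq_of_mul_eq_mul_left hp0
    calc p * (c * (u * (p + 1)) * u) = c * (u * (p + 1) * (p * u)) := by ring
      _ = a * (p * B) := h1
      _ = p * (a * B) := by ring
  have h4 : B * k = n * (u * (p + 1)) := by
    apply Nat.eq_of_mul_eq_mul_left ha0
    calc a * (B * k) = (a * B) * k := by ring
      _ = (c * (u * (p + 1)) * u) * k := by rw [h3]
      _ = (c * u * k) * (u * (p + 1)) := by ring
      _ = (a * n) * (u * (p + 1)) := by rw [h2]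
      _ = a * (n * (u * (p + 1))) := by ring
  have hk : 0 < k := by
    rcases Nat.eq_zero_or_pos k with rfl | h
    · have : n * (u * (p + 1)) = 0 := by rw [← h4]; ring
      have h5 : 0 < n * (u * (p + 1)) := by positivity
      omega
    · exact h
  by_cases hn3 : n = 3
  · exact Or.inl hn3
  right
  have hu0 : 0 < u := hu
  by_cases hn4 : n = 4
  · exfalso
    subst hn4
    have hB' : B = u * (p ^ 2 + p + 1) := by
      have h5 : p ^ 3 = B + 1 := hB
      have h6 : p ^ 3 = u * (p ^ 2 + p + 1) + 1 := by rw [hpdef]; ring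
      omega
    have h5 : (p ^ 2 + p + 1) * k = 4 * (p + 1) := by
      apply Nat.eq_of_mul_eq_mul_left hu0
      calc u * ((p ^ 2 + p + 1) * k) = B * k := by rw [hB']; ring
        _ = 4 * (u * (p + 1)) := h4
        _ = u * (4 * (p + 1)) := by ring
    by_cases hp4 : p ≤ 3
    · have : p = 2 ∨ p = 3 := by omega
      rcases this with h6 | h6
      · rw [h6] at h5
        omega
      · rw [h6] at h5
        omega
    · have h6 : 4 * p ≤ p ^ 2 := by nlinarith
      have h7 : (p ^ 2 + p + 1) * 1 ≤ (p ^ 2 + p + 1) * k := Nat.mul_le_mul_left _ hk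
      omega
  by_cases hn5 : n = 5
  · subst hn5
    refine ⟨rfl, ?_⟩
    have hB' : B = u * (p + 1) * (p ^ 2 + 1) := by
      have h5 : p ^ 4 = B + 1 := hB
      have h6 : p ^ 4 = u * (p + 1) * (p ^ 2 + 1) + 1 := by rw [hpdef]; ring
      omega
    have h5 : (p ^ 2 + 1) * k = 5 := by
      have h0 : 0 < u * (p + 1) := by positivity
      apply Nat.eq_of_mul_eq_mul_left h0
      calc u * (p + 1) * ((p ^ 2 + 1) * k) = B * k := by rw [hB']; ring
        _ = 5 * (u * (p + 1)) := h4
        _ = u * (p + 1) * 5 := by ring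
    by_contra h6
    have h7 : 3 ≤ p := by omega
    have h8 : 9 ≤ p ^ 2 := by nlinarith
    have h9 : (p ^ 2 + 1) * 1 ≤ (p ^ 2 + 1) * k := Nat.mul_le_mul_left _ hk
    omega
  · exfalso
    have hn6 : 6 ≤ n := by omega
    obtain ⟨m, rfl⟩ : ∃ m, n = m + 6 := ⟨n - 6, by omega⟩
    have h5 : p ^ (m + 6 - 1) = p ^ 2 * p ^ (m + 3) := by
      rw [← pow_add]
      congr 1
      omega
    have h6 : u * (p + 1) * p ^ (m + 3) ≤ B := by
      have h7 : p ^ 2 = u * (p + 1) + 1 := by rw [hpdef]; ring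
      have h8 : 1 ≤ p ^ (m + 3) := Nat.one_le_pow _ _ (by omega)
      have h9 : (u * (p + 1) + 1) * p ^ (m + 3) = B + 1 := by
        rw [← h7, ← h5, hB]
      nlinarith
    have h7 : 2 ^ (m + 3) ≤ p ^ (m + 3) := Nat.pow_le_pow_left (by omega) _
    have h8 : m + 6 < 2 ^ (m + 3) := two_pow_aux m
    have h0 : 0 < u * (p + 1) := by positivity
    have h9 : u * (p + 1) * p ^ (m + 3) * k ≤ B * k := Nat.mul_le_mul_right _ h6
    have h10 : u * (p + 1) * (p ^ (m + 3) * k) ≤ u * (p + 1) * (m + 6) := by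
      calc u * (p + 1) * (p ^ (m + 3) * k) = u * (p + 1) * p ^ (m + 3) * k := by ring
        _ ≤ B * k := h9
        _ = (m + 6) * (u * (p + 1)) := h4
        _ = u * (p + 1) * (m + 6) := by ring
    have h11 := Nat.le_of_mul_le_mul_left h10 h0
    have h12 : p ^ (m + 3) * 1 ≤ p ^ (m + 3) * k := Nat.mul_le_mul_left _ hk
    omega

end Cfsg.Agent.Lib.EqOrd
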