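import Mathlib

/-!
# Counting subgroups of order `p²` of an elementary abelian group
-/

set_option autoImplicit false

namespace Cfsg.Agent.Lib.EqOrd

variable {p : ℕ} [hp : Fact p.Prime] {A : Type*} [AddCommGroup A] [Finite A]

/-- Pairs `(v, w)` with `v ≠ 0` and `w` not a multiple of `v`. -/
def Pairs (A : Type*) [AddCommGroup A] : Type _ :=
  {x : A × A // x.1 ≠ 0 ∧ x.2 ∉ AddSubgroup.zmultiples x.1}

theorem card_zmultiples_eq (htor : ∀ a : A, p • a = 0) {v : A} (hv : v ≠ 0) :
    Nat.card (AddSubgroup.zmultiples v) = p := by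
  rw [Nat.card_zmultiples]
  exact addOrderOf_eq_prime (htor v) hv

theorem card_pairs (htor : ∀ a : A, p • a = 0) :
    Nat.card (Pairs A) = (Nat.card A - 1) * (Nat.card A - p) := by
  classical
  haveI : Fintype A := Fintype.ofFinite A
  let E : Pairs A ≃ Σ v : {v : A // v ≠ 0}, {w : A // w ∉ AddSubgroup.zmultiples v.1} :=
    { toFun := fun x => ⟨⟨x.1.1, x.2.1⟩, ⟨x.1.2, x.2.2⟩⟩
      invFun := fun y => ⟨(y.1.1, y.2.1), y.1.2, y.2.2⟩
      left_inv := fun _ => rfl
      right_inv := fun _ => rfl }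
  rw [Nat.card_congr E, Nat.card_sigma]
  have h1 : ∀ v : {v : A // v ≠ 0},
      Nat.card {w : A // w ∉ AddSubgroup.zmultiples v.1} = Nat.card A - p := by
    intro v
    have h2 := card_zmultiples_eq (p := p) htor v.2
    rw [Nat.card_eq_fintype_card, Fintype.card_subtype_compl, Nat.card_eq_fintype_card]
    rw [Nat.card_eq_fintype_card] at h2
    rw [← h2]
  rw [Finset.sum_congr rfl (fun v _ => h1 v), Finset.sum_const, Finset.card_univ, smul_eq_mul]
  congr 1
  rw [Fintype.card_subtype_compl]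
  simp [Nat.card_eq_fintype_card]

theorem card_sup_mul_card_inf (H N : AddSubgroup A) :
    Nat.card (H ⊔ N : AddSubgroup A) * Nat.card (H ⊓ N : AddSubgroup A) = Nat.card H * Nat.card N := by
  have h1 : Nat.card N * N.relIndex (H ⊔ N) = Nat.card (H ⊔ N : AddSubgroup A) := by
    rw [← AddSubgroup.relIndex_bot_left N, ← AddSubgroup.relIndex_bot_left (H ⊔ N)]
    exact AddSubgroup.relIndex_mul_relIndex ⊥ N (H ⊔ N) bot_le le_sup_right
  have h2 : Nat.card (H ⊓ N : AddSubgroup A) * N.relIndex H = Nat.card H := by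
    rw [← AddSubgroup.inf_relIndex_left, ← AddSubgroup.relIndex_bot_left (H ⊓ N),
      ← AddSubgroup.relIndex_bot_left H]
    exact AddSubgroup.relIndex_mul_relIndex ⊥ (H ⊓ N) H bot_le inf_le_left
  rw [AddSubgroup.relIndex_sup_right] at h1
  rw [← h1, ← h2]
  ring

/-- The span of an independent pair. -/
def span2 (x : Pairs A) : AddSubgroup A :=
  AddSubgroup.zmultiples x.1.1 ⊔ AddSubgroup.zmultiples x.1.2

theorem card_span2 (htor : ∀ a : A, p • a = 0) (x : Pairs A) : Nat.card (span2 x) = p ^ 2 := by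
  have hw0 : x.1.2 ≠ 0 := by
    intro h
    apply x.2.2
    rw [h]
    exact zero_mem _
  have h1 := card_sup_mul_card_inf (AddSubgroup.zmultiples x.1.1) (AddSubgroup.zmultiples x.1.2)
  rw [card_zmultiples_eq (p := p) htor x.2.1, card_zmultiples_eq (p := p) htor hw0] at h1
  have h2 : AddSubgroup.zmultiples x.1.1 ⊓ AddSubgroup.zmultiples x.1.2 = ⊥ := by
    rw [eq_bot_iff]
    intro z hz
    obtain ⟨hz1, hz2⟩ := AddSubgroup.mem_inf.mp hz
    by_contra hz0
    have hz0' : z ≠ 0 := by simpa using hz0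
    apply x.2.2
    have h3 : AddSubgroup.zmultiples z ≤ AddSubgroup.zmultiples x.1.2 :=
      (AddSubgroup.zmultiples_le).2 hz2
    have h4 : AddSubgroup.zmultiples z = AddSubgroup.zmultiples x.1.2 := by
      apply AddSubgroup.eq_of_le_of_card_ge h3
      rw [card_zmultiples_eq (p := p) htor hz0', card_zmultiples_eq (p := p) htor hw0]
    have h5 : AddSubgroup.zmultiples z ≤ AddSubgroup.zmultiples x.1.1 :=
      (AddSubgroup.zmultiples_le).2 hz1
    rw [h4] at h5
    exact h5 (AddSubgroup.mem_zmultiples _)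
  rw [h2, AddSubgroup.card_bot, mul_one] at h1
  rw [span2, h1, pow_two]

/-- The double count. -/
theorem count_eq (htor : ∀ a : A, p • a = 0) :
    Nat.card {W : AddSubgroup A // Nat.card W = p ^ 2} * ((p ^ 2 - 1) * (p ^ 2 - p)) =
      (Nat.card A - 1) * (Nat.card A - p) := by
  classical
  haveI : Finite (AddSubgroup A) := inferInstance
  haveI : Fintype {W : AddSubgroup A // Nat.card W = p ^ 2} := Fintype.ofFinite _
  haveI : Finite (Pairs A) := by unfold Pairs; infer_instance
  let f : Pairs A → {W : AddSubgroup A // Nat.card W = p ^ 2} := fun x => ⟨span2 x, card_span2 htor x⟩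
  have hfib : ∀ W : {W : AddSubgroup A // Nat.card W = p ^ 2},
      Nat.card {x : Pairs A // f x = W} = (p ^ 2 - 1) * (p ^ 2 - p) := by
    intro W
    have htor' : ∀ a : W.1, p • a = 0 := fun a => Subtype.ext (htor a.1)
    have h0 := card_pairs (p := p) htor'
    rw [W.2] at h0
    rw [← h0]
    refine Nat.card_congr (Equiv.symm ?_)
    refine
      { toFun := fun y => ⟨⟨((y.1.1 : A), (y.1.2 : A)), ?_, ?_⟩, ?_⟩
        invFun := fun y => ⟨(⟨y.1.1.1, ?_⟩, ⟨y.1.1.2, ?_⟩), ?_, ?_⟩
        left_inv := fun y => ?_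
        right_inv := fun y => ?_ }
    · intro h
      exact y.2.1 (Subtype.ext h)
    · intro h
      apply y.2.2
      obtain ⟨k, hk⟩ := AddSubgroup.mem_zmultiples_iff.mp h
      exact AddSubgroup.mem_zmultiples_iff.mpr ⟨k, Subtype.ext (by simpa using hk)⟩
    · apply Subtype.ext
      show span2 _ = W.1
      apply AddSubgroup.eq_of_le_of_card_ge
      · apply sup_le
        · exact (AddSubgroup.zmultiples_le).2 y.1.1.2
        · exact (AddSubgroup.zmultiples_le).2 y.1.2.2
      · rw [W.2]
        exact (card_span2 htor _).ge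
    · have hle : span2 y.1 ≤ W.1 := le_of_eq (congrArg Subtype.val y.2)
      exact hle ((le_sup_left : _ ≤ span2 y.1) (AddSubgroup.mem_zmultiples _))
    · have hle : span2 y.1 ≤ W.1 := le_of_eq (congrArg Subtype.val y.2)
      exact hle ((le_sup_right : _ ≤ span2 y.1) (AddSubgroup.mem_zmultiples _))
    · intro h
      exact y.1.2.1 (congrArg Subtype.val h)
    · intro h
      apply y.1.2.2
      obtain ⟨k, hk⟩ := AddSubgroup.mem_zmultiples_iff.mp h
      exact AddSubgroup.mem_zmultiples_iff.mpr ⟨k, by simpa using congrArg Subtype.val hk⟩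
    · rfl
    · rfl
  have h1 := (Equiv.sigmaFiberEquiv f)
  have h2 := Nat.card_congr h1
  rw [Nat.card_sigma, Finset.sum_congr rfl (fun W _ => hfib W), Finset.sum_const, Finset.card_univ,
    smul_eq_mul, card_pairs (p := p) htor] at h2
  rw [Nat.card_eq_fintype_card]
  exact h2

end Cfsg.Agent.Lib.EqOrd
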