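import Mathlib
import Cfsg.Agent.Lib.Solvable.Hall

/-!
# No solvable group of order divisible by `5 * 13` acts faithfully on an elementary abelian group of order 81
-/

set_option autoImplicit false

namespace Cfsg.Agent.Lib.EqOrd

variable {A : Type*} [AddCommGroup A] [Finite A]
variable {Y : Type*} [Group Y] [DistribMulAction Y A]

/-- The order of a fixed point subgroup. -/
theorem fix_card_pow (hA : Nat.card A = 81) (M : Type*) [Group M] [DistribMulAction M A] :
    ∃ j, j ≤ 4 ∧ Nat.card (FixedPoints.addSubgroup M A) = 3 ^ j := by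
  have h1 : Nat.card (FixedPoints.addSubgroup M A) ∣ 3 ^ 4 := by
    have := AddSubgroup.card_addSubgroup_dvd_card (FixedPoints.addSubgroup M A)
    rw [hA] at this
    exact this
  obtain ⟨j, hj, hj2⟩ := (Nat.dvd_prime_pow Nat.prime_three).1 h1
  exact ⟨j, hj, hj2⟩

theorem fix_top_of_card (hA : Nat.card A = 81) (M : Type*) [Group M] [DistribMulAction M A]
    (h : Nat.card (FixedPoints.addSubgroup M A) = 3 ^ 4) (m : M) (a : A) : m • a = a := by
  have h1 : FixedPoints.addSubgroup M A = ⊤ := by
    apply AddSubgroup.eq_top_of_card_eq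
    rw [h, hA]
    norm_num
  have h2 : a ∈ FixedPoints.addSubgroup M A := by
    rw [h1]
    exact AddSubgroup.mem_top a
  exact (FixedPoints.mem_addSubgroup M A a).1 h2 m

/-- A nontrivial `5`-group has no nonzero fixed vector. -/
theorem fix_five [FaithfulSMul Y A] (hA : Nat.card A = 81) (M : Subgroup Y) (hM : IsPGroup 5 M) (hne : M ≠ ⊥)
    {a : A} (ha : ∀ m : M, m • a = a) : a = 0 := by
  haveI : Fact (Nat.Prime 5) := ⟨by norm_num⟩
  obtain ⟨j, hj, hj2⟩ := fix_card_pow hA M
  have h1 := hM.card_modEq_card_fixedPoints A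
  have h2 : Nat.card (MulAction.fixedPoints M A) = Nat.card (FixedPoints.addSubgroup M A) := rfl
  rw [h2, hj2, hA] at h1
  have h3 : j = 0 ∨ j = 4 := by
    interval_cases j
    · exact Or.inl rfl
    · exact absurd h1 (by decide)
    · exact absurd h1 (by decide)
    · exact absurd h1 (by decide)
    · exact Or.inr rfl
  rcases h3 with rfl | rfl
  · have h4 : a ∈ FixedPoints.addSubgroup M A := (FixedPoints.mem_addSubgroup M A a).2 ha
    have hj1 : Nat.card (FixedPoints.addSubgroup M A) = 1 := by rw [hj2, pow_zero]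
    have h5 := AddSubgroup.eq_bot_of_card_eq _ hj1
    rw [h5] at h4
    simpa using h4
  · exfalso
    apply hne
    rw [eq_bot_iff]
    intro m hm
    rw [Subgroup.mem_bot]
    apply FaithfulSMul.eq_of_smul_eq_smul (α := A)
    intro b
    rw [one_smul]
    exact fix_top_of_card hA M hj2 ⟨m, hm⟩ b

/-- A nontrivial `13`-group has exactly `3` fixed vectors. -/
theorem fix_thirteen [FaithfulSMul Y A] (hA : Nat.card A = 81) (M : Subgroup Y) (hM : IsPGroup 13 M)
    (hne : M ≠ ⊥) : Nat.card (FixedPoints.addSubgroup M A) = 3 := by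
  haveI : Fact (Nat.Prime 13) := ⟨by norm_num⟩
  obtain ⟨j, hj, hj2⟩ := fix_card_pow hA M
  have h1 := hM.card_modEq_card_fixedPoints A
  have h2 : Nat.card (MulAction.fixedPoints M A) = Nat.card (FixedPoints.addSubgroup M A) := rfl
  rw [h2, hj2, hA] at h1
  have h3 : j = 1 ∨ j = 4 := by
    interval_cases j
    · exact absurd h1 (by decide)
    · exact Or.inl rfl
    · exact absurd h1 (by decide)
    · exact absurd h1 (by decide)
    · exact Or.inr rfl
  rcases h3 with rfl | rfl
  · simpa using hj2
  · exfalso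
    apply hne
    rw [eq_bot_iff]
    intro m hm
    rw [Subgroup.mem_bot]
    apply FaithfulSMul.eq_of_smul_eq_smul (α := A)
    intro b
    rw [one_smul]
    exact fix_top_of_card hA M hj2 ⟨m, hm⟩ b

/-- An element of odd order fixes an invariant subgroup of order `3` pointwise. -/
theorem odd_fix (C : AddSubgroup A) (hC : Nat.card C = 3) (g : Y) (hg : ∀ a ∈ C, g • a ∈ C)
    (hodd : Odd (orderOf g)) {a : A} (ha : a ∈ C) : g • a = a := by
  classical
  by_cases ha0 : a = 0
  · rw [ha0, smul_zero]
  have htor : ∀ b : C, 3 • b = 0 := by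
    intro b
    rw [← hC]
    exact card_nsmul_eq_zero'
  have h3a : (3 : ℕ) • a = 0 := congrArg Subtype.val (htor ⟨a, ha⟩)
  have hne : a ≠ -a := by
    intro h
    apply ha0
    have h1 : (3 : ℕ) • a = a + (a + a) := by
      rw [succ_nsmul, two_nsmul]
      abel
    have h2 : a + a = 0 := by
      nth_rewrite 1 [h]
      simp
    rw [h3a, h2, add_zero] at h1
    exact h1.symm
  have hall : ∀ s ∈ C, s = 0 ∨ s = a ∨ s = -a := by
    intro s hs
    by_contra hcon
    push Not at hcon
    obtain ⟨h1, h2, h3⟩ := hcon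
    let S : Finset C := {⟨0, C.zero_mem⟩, ⟨a, ha⟩, ⟨-a, C.neg_mem ha⟩, ⟨s, hs⟩}
    have hS : S.card = 4 := by
      have e0 : (0 : A) ≠ a := Ne.symm ha0
      have e1 : (0 : A) ≠ -a := by
        intro h
        exact ha0 (neg_eq_zero.mp h.symm)
      have e2 : (0 : A) ≠ s := Ne.symm h1
      have e3 : a ≠ s := Ne.symm h2
      have e4 : -a ≠ s := Ne.symm h3
      simp only [S]
      rw [Finset.card_insert_of_notMem, Finset.card_insert_of_notMem, Finset.card_insert_of_notMem,
        Finset.card_singleton]
      · simp [Subtype.ext_iff, e4]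
      · simp [Subtype.ext_iff, hne, e3]
      · simp [Subtype.ext_iff, e0, e1, e2]
    have h4 : S.card ≤ Nat.card C := by
      haveI : Fintype C := Fintype.ofFinite C
      rw [Nat.card_eq_fintype_card]
      exact Finset.card_le_univ S
    omega
  obtain ⟨k, hk⟩ := hodd
  have hs := hg a ha
  have hs0 : g • a ≠ 0 := by
    intro h
    exact ha0 ((smul_eq_zero_iff_eq g).mp h)
  rcases hall _ hs with h | h | h
  · exact absurd h hs0
  · exact h
  · exfalso
    have h2 : (g ^ 2) • a = a := by
      rw [pow_two, mul_smul, h, smul_neg, h, neg_neg]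
    have h3 : ∀ m : ℕ, (g ^ (2 * m)) • a = a := by
      intro m
      rw [pow_mul]
      induction m with
      | zero => simp
      | succ m ih => rw [pow_succ, mul_smul, h2, ih]
    have h4 : g = g ^ (2 * (k + 1)) := by
      have h5 : g ^ (2 * k + 1) = 1 := by
        rw [← hk]
        exact pow_orderOf_eq_one g
      calc g = g ^ (2 * k + 1) * g := by rw [h5, one_mul]
        _ = g ^ (2 * (k + 1)) := by rw [← pow_succ]; congr 1
    have h6 := h3 (k + 1)
    rw [← h4, h] at h6
    exact hne h6.symm

/-- The core of the exceptional case. -/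
theorem exc_core [Finite Y] [FaithfulSMul Y A] [Group.IsSolvable Y] (hA : Nat.card A = 81)
    (h5 : 5 ∣ Nat.card Y) (h13 : 13 ∣ Nat.card Y)
    (hpi : ∀ r : ℕ, r.Prime → r ∣ Nat.card Y → r = 5 ∨ r = 13) : False := by
  classical
  haveI f5 : Fact (Nat.Prime 5) := ⟨by norm_num⟩
  haveI f13 : Fact (Nat.Prime 13) := ⟨by norm_num⟩
  obtain ⟨x, hx⟩ := exists_prime_orderOf_dvd_card' 5 h5
  obtain ⟨y, hy⟩ := exists_prime_orderOf_dvd_card' 13 h13
  haveI : Nontrivial Y := by
    refine ⟨⟨x, 1, ?_⟩⟩
    rintro rfl
    rw [orderOf_one] at hx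
    omega
  have hxne : (Subgroup.zpowers x) ≠ ⊥ := by
    intro h
    rw [Subgroup.zpowers_eq_bot] at h
    rw [h, orderOf_one] at hx
    omega
  have hyne : (Subgroup.zpowers y) ≠ ⊥ := by
    intro h
    rw [Subgroup.zpowers_eq_bot] at h
    rw [h, orderOf_one] at hy
    omega
  have hxp : IsPGroup 5 (Subgroup.zpowers x) := by
    rw [IsPGroup.iff_card]
    exact ⟨1, by rw [Nat.card_zpowers, hx, pow_one]⟩
  have hyp : IsPGroup 13 (Subgroup.zpowers y) := by
    rw [IsPGroup.iff_card]
    exact ⟨1, by rw [Nat.card_zpowers, hy, pow_one]⟩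
  -- a nonzero vector in a subgroup of order 3
  have hnz : ∀ C : AddSubgroup A, Nat.card C = 3 → ∃ c ∈ C, c ≠ 0 := by
    intro C hC
    by_contra hcon
    push Not at hcon
    have : C = ⊥ := by
      rw [eq_bot_iff]
      intro c hc
      simpa using hcon c hc
    rw [this, AddSubgroup.card_bot] at hC
    omega
  obtain ⟨r, M, hr, hMn, hMne, hMp, hMc, -⟩ := Cfsg.Agent.Lib.Solvable.Hall.exists_normal_abelian_pSubgroup Y
  haveI : Fact r.Prime := ⟨hr⟩
  have hrd : r ∣ Nat.card Y := by
    obtain ⟨k, hk⟩ := IsPGroup.iff_card.mp hMp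
    have hk0 : k ≠ 0 := by
      rintro rfl
      rw [pow_zero] at hk
      exact hMne (Subgroup.card_eq_one.mp hk)
    have h1 : r ∣ Nat.card M := by
      rw [hk]
      exact dvd_pow_self r hk0
    exact h1.trans (Subgroup.card_subgroup_dvd_card M)
  rcases hpi r hr hrd with rfl | rfl
  · -- a normal `5`-subgroup
    have hfree : ∀ m ∈ M, m ≠ 1 → ∀ a : A, m • a = a → a = 0 := by
      intro m hm hm1 a ha
      have h1 : IsPGroup 5 (Subgroup.zpowers m) :=
        hMp.to_le (Subgroup.zpowers_le.mpr hm)
      have h2 : Subgroup.zpowers m ≠ ⊥ := by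
        intro h
        rw [Subgroup.zpowers_eq_bot] at h
        exact hm1 h
      apply fix_five hA (Subgroup.zpowers m) h1 h2
      rintro ⟨u, hu⟩
      obtain ⟨k, rfl⟩ := Subgroup.mem_zpowers_iff.mp hu
      change m ^ k • a = a
      have := (MulAction.mem_stabilizer_iff (g := m) (a := a)).2 ha
      exact MulAction.mem_stabilizer_iff.1 (Subgroup.zpow_mem _ this k)
    -- `M` is small
    obtain ⟨a₀, ha₀⟩ : ∃ a : A, a ≠ 0 := by
      haveI : Nontrivial A := by
        apply Finite.one_lt_card_iff_nontrivial.mp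
        rw [hA]
        norm_num
      exact exists_ne 0
    have hle : Nat.card M ≤ 80 := by
      let f : M → {a : A // a ≠ 0} := fun m => ⟨(m : Y) • a₀, fun h => ha₀ ((smul_eq_zero_iff_eq _).mp h)⟩
      have hf : Function.Injective f := by
        intro m m' h
        have h1 : (m : Y) • a₀ = (m' : Y) • a₀ := congrArg Subtype.val h
        by_contra hne
        have h2 : (m'⁻¹ * m : M) ≠ 1 := by
          intro h3
          apply hne
          exact (inv_mul_eq_one.mp h3).symm
        apply ha₀
        apply hfree ((m'⁻¹ * m : M) : Y) (m'⁻¹ * m : M).2 (fun h => h2 (Subtype.ext h)) a₀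
        have h4 : ((m'⁻¹ * m : M) : Y) = (m' : Y)⁻¹ * (m : Y) := by simp
        rw [h4, mul_smul, h1, inv_smul_smul]
      have h1 := Nat.card_le_card_of_injective f hf
      have h2 : Nat.card {a : A // a ≠ 0} = 80 := by
        haveI : Fintype A := Fintype.ofFinite A
        rw [Nat.card_eq_fintype_card, Fintype.card_subtype_compl]
        simp only [Nat.card_eq_fintype_card] at hA
        simp [hA]
      omega
    obtain ⟨k, hk⟩ := IsPGroup.iff_card.mp hMp
    have hk12 : k = 1 ∨ k = 2 := by
      have hk0 : k ≠ 0 := by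
        rintro rfl
        rw [pow_zero] at hk
        exact hMne (Subgroup.card_eq_one.mp hk)
      have hk3 : k < 3 := by
        by_contra h
        have h1 : 5 ^ 3 ≤ 5 ^ k := Nat.pow_le_pow_right (by norm_num) (by omega)
        omega
      omega
    -- `y` centralizes a nontrivial element of `M`
    letI act : MulAction (Subgroup.zpowers y) M :=
      MulAction.compHom M ((MulAut.conjNormal (H := M)).comp (Subgroup.zpowers y).subtype)
    have hact : ∀ (u : Subgroup.zpowers y) (m : M), ((u • m : M) : Y) = (u : Y) * m * (u : Y)⁻¹ := by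
      intro u m
      rfl
    have hmod := hyp.card_modEq_card_fixedPoints M
    obtain ⟨x₀, hx₀, hx₀1⟩ : ∃ x₀ : M, x₀ ∈ MulAction.fixedPoints (Subgroup.zpowers y) M ∧ x₀ ≠ 1 := by
      by_contra hcon
      push Not at hcon
      have h1 : MulAction.fixedPoints (Subgroup.zpowers y) M = {1} := by
        ext m
        constructor
        · exact fun h => hcon m h
        · rintro rfl u
          apply Subtype.ext
          rw [hact]
          simp
      have h2 : Nat.card (MulAction.fixedPoints (Subgroup.zpowers y) M) = 1 := by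
        rw [h1]
        simp
      rw [h2, hk] at hmod
      rcases hk12 with rfl | rfl
      · exact absurd hmod (by decide)
      · exact absurd hmod (by decide)
    have hcomm : ∀ u : Subgroup.zpowers y, (u : Y) * x₀ = x₀ * (u : Y) := by
      intro u
      have h1 := hx₀ u
      have h2 := congrArg Subtype.val h1
      rw [hact] at h2
      calc (u : Y) * x₀ = ((u : Y) * x₀ * (u : Y)⁻¹) * (u : Y) := by group
        _ = x₀ * (u : Y) := by rw [h2]
    have hC := fix_thirteen hA (Subgroup.zpowers y) hyp hyne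
    obtain ⟨c, hc, hc0⟩ := hnz _ hC
    have hinv : ∀ a ∈ FixedPoints.addSubgroup (Subgroup.zpowers y) A,
        (x₀ : Y) • a ∈ FixedPoints.addSubgroup (Subgroup.zpowers y) A := by
      intro a ha
      rw [FixedPoints.mem_addSubgroup] at ha ⊢
      intro u
      have h2 := ha u
      change (u : Y) • (x₀ : Y) • a = (x₀ : Y) • a
      rw [← mul_smul, hcomm u, mul_smul]
      congr 1
    have hodd : Odd (orderOf (x₀ : Y)) := by
      rw [Subgroup.orderOf_coe]
      have h1 : orderOf x₀ ∣ 5 ^ k := by
        rw [← hk]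
        exact orderOf_dvd_natCard x₀
      exact Odd.of_dvd_nat (Odd.pow (by decide)) h1
    have h1 := odd_fix _ hC (x₀ : Y) hinv hodd hc
    exact hc0 (hfree x₀ x₀.2 (fun h => hx₀1 (Subtype.ext h)) c h1)
  · -- a normal `13`-subgroup
    have hC := fix_thirteen hA M hMp hMne
    obtain ⟨c, hc, hc0⟩ := hnz _ hC
    have hinv : ∀ a ∈ FixedPoints.addSubgroup M A, x • a ∈ FixedPoints.addSubgroup M A := by
      intro a ha
      rw [FixedPoints.mem_addSubgroup] at ha ⊢
      intro m
      have h1 : x⁻¹ * (m : Y) * x ∈ M := by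
        have := hMn.conj_mem (m : Y) m.2 x⁻¹
        simpa using this
      have h2 := ha ⟨_, h1⟩
      have h3 : (m : Y) * x = x * (x⁻¹ * (m : Y) * x) := by group
      change (m : Y) • x • a = x • a
      rw [← mul_smul, h3, mul_smul]
      congr 1
    have hodd : Odd (orderOf x) := by
      rw [hx]
      decide
    have h1 := odd_fix _ hC x hinv hodd hc
    apply hc0
    apply fix_five hA (Subgroup.zpowers x) hxp hxne
    rintro ⟨m, hm⟩
    obtain ⟨k, rfl⟩ := Subgroup.mem_zpowers_iff.mp hm
    change x ^ k • c = c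
    have h2 : ∀ k : ℤ, x ^ k • c = c := by
      intro k
      have := (MulAction.mem_stabilizer_iff (g := x) (a := c)).2 h1
      exact MulAction.mem_stabilizer_iff.1 (Subgroup.zpow_mem _ this k)
    exact h2 k

end Cfsg.Agent.Lib.EqOrd
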