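import Mathlib
import Cfsg.Prelude.Def_Perm

/-!
# The one-dimensional semilinear and semi-affine groups: orders
-/

set_option autoImplicit false

namespace Cfsg.Agent.Lib.EqOrd

/-- Additive automorphisms are `ZMod p`-linear. -/
def toLinE {p : ℕ} {A : Type*} [AddCommGroup A] [Module (ZMod p) A] (e : A ≃+ A) : A ≃ₗ[ZMod p] A :=
  e.toLinearEquiv (fun c x => (e.toAddMonoidHom.toZModLinearMap p).map_smul c x)

@[simp] theorem toLinE_apply {p : ℕ} {A : Type*} [AddCommGroup A] [Module (ZMod p) A] (e : A ≃+ A)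
    (x : A) : toLinE (p := p) e x = e x := rfl

variable {p : ℕ} {F : Type*} [Field F] [Module (ZMod p) F]

/-- `ΓL(1, F)` as a group of `ZMod p`-linear automorphisms. -/
def Lam (p : ℕ) (F : Type*) [Field F] [Module (ZMod p) F] : Subgroup (F ≃ₗ[ZMod p] F) where
  carrier := {τ | ∃ a : F, a ≠ 0 ∧ ∃ σ : F ≃+* F, ∀ x, τ x = a * σ x}
  one_mem' := ⟨1, one_ne_zero, RingEquiv.refl F, fun x => by simp⟩
  mul_mem' := by
    rintro τ τ' ⟨a, ha, σ, h⟩ ⟨a', ha', σ', h'⟩
    refine ⟨a * σ a', mul_ne_zero ha (by simpa using ha'), σ'.trans σ, fun x => ?_⟩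
    rw [LinearEquiv.mul_apply, h, h', map_mul, mul_assoc]
    rfl
  inv_mem' := by
    rintro τ ⟨a, ha, σ, h⟩
    refine ⟨σ.symm a⁻¹, by simpa using ha, σ.symm, fun x => ?_⟩
    apply τ.injective
    change τ (τ.symm x) = _
    rw [LinearEquiv.apply_symm_apply, h, map_mul, RingEquiv.apply_symm_apply, RingEquiv.apply_symm_apply,
      ← mul_assoc, mul_inv_cancel₀ ha, one_mul]

/-- The element `x ↦ a σ(x)`. -/
def lamMk (p : ℕ) {F : Type*} [Field F] [Module (ZMod p) F] (u : Fˣ) (σ : F ≃+* F) : F ≃ₗ[ZMod p] F :=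
  toLinE (p := p) (σ.toAddEquiv.trans
    { toEquiv := Units.mulLeft u
      map_add' := fun x y => by simp [Units.mulLeft, mul_add] })

@[simp] theorem lamMk_apply (u : Fˣ) (σ : F ≃+* F) (x : F) : lamMk p u σ x = u * σ x := rfl

theorem card_lam [Finite F] :
    Nat.card (Lam p F) = (Nat.card F - 1) * Nat.card (F ≃+* F) := by
  classical
  haveI : Finite (F ≃+* F) := Finite.of_injective (fun σ : F ≃+* F => (σ : F → F))
    (fun σ τ h => RingEquiv.ext (congrFun h))
  let f : Fˣ × (F ≃+* F) → Lam p F := fun x =>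
    ⟨lamMk p x.1 x.2, x.1, x.1.ne_zero, x.2, fun _ => rfl⟩
  have hf : Function.Bijective f := by
    constructor
    · rintro ⟨u, σ⟩ ⟨v, τ⟩ h
      have h1 : ∀ x, (u : F) * σ x = v * τ x := fun x => by
        have := congrArg (fun t : Lam p F => (t : F ≃ₗ[ZMod p] F) x) h
        simpa [f] using this
      have h2 : (u : F) = v := by simpa using h1 1
      have h3 : u = v := Units.ext h2
      subst h3
      have h4 : σ = τ := RingEquiv.ext fun x => mul_left_cancel₀ u.ne_zero (h1 x)
      rw [h4]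
    · rintro ⟨τ, a, ha, σ, h⟩
      refine ⟨(Units.mk0 a ha, σ), Subtype.ext (LinearEquiv.ext fun x => ?_)⟩
      simp [f, h]
  rw [← Nat.card_eq_of_bijective f hf, Nat.card_prod, Nat.card_units]

omit [Module (ZMod p) F] in
theorem card_semiaffine [Finite F] :
    Nat.card (Cfsg.semiaffineGroup F) = Nat.card F * (Nat.card F - 1) * Nat.card (F ≃+* F) := by
  classical
  haveI : Finite (F ≃+* F) := Finite.of_injective (fun σ : F ≃+* F => (σ : F → F))
    (fun σ τ h => RingEquiv.ext (congrFun h))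
  let g : F × Fˣ × (F ≃+* F) → Equiv.Perm F := fun x =>
    x.2.2.toEquiv.trans ((Units.mulLeft x.2.1).trans (Equiv.addRight x.1))
  have hg : ∀ x y, g x y = (x.2.1 : F) * x.2.2 y + x.1 := fun _ _ => rfl
  let f : F × Fˣ × (F ≃+* F) → Cfsg.semiaffineGroup F := fun x =>
    ⟨g x, x.2.1, x.1, x.2.2, hg x⟩
  have hf : Function.Bijective f := by
    constructor
    · rintro ⟨b, u, σ⟩ ⟨c, v, τ⟩ h
      have h1 : ∀ y, (u : F) * σ y + b = v * τ y + c := fun y => by
        have := congrArg (fun t : Cfsg.semiaffineGroup F => (t : Equiv.Perm F) y) h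
        simpa [f, hg] using this
      have h2 : b = c := by simpa using h1 0
      subst h2
      have h3 : (u : F) = v := by simpa using h1 1
      have h4 : u = v := Units.ext h3
      subst h4
      have h5 : σ = τ := RingEquiv.ext fun y =>
        mul_left_cancel₀ u.ne_zero (add_right_cancel (h1 y))
      rw [h5]
    · rintro ⟨τ, a, b, σ, h⟩
      refine ⟨(b, a, σ), Subtype.ext (Equiv.ext fun y => ?_)⟩
      simp [f, hg, h]
  rw [← Nat.card_eq_of_bijective f hf, Nat.card_prod, Nat.card_prod, Nat.card_units]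
  ring

omit [Module (ZMod p) F] in
theorem card_affine [Finite F] :
    Nat.card (Cfsg.affineGroup F) = Nat.card F * (Nat.card F - 1) := by
  classical
  let g : F × Fˣ → Equiv.Perm F := fun x =>
    (Units.mulLeft x.2).trans (Equiv.addRight x.1)
  have hg : ∀ x y, g x y = (x.2 : F) * y + x.1 := fun _ _ => rfl
  let f : F × Fˣ → Cfsg.affineGroup F := fun x =>
    ⟨g x, x.2, x.1, hg x⟩
  have hf : Function.Bijective f := by
    constructor
    · rintro ⟨b, u⟩ ⟨c, v⟩ h
      have h1 : ∀ y, (u : F) * y + b = v * y + c := fun y => by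
        have := congrArg (fun t : Cfsg.affineGroup F => (t : Equiv.Perm F) y) h
        simpa [f, hg] using this
      have h2 : b = c := by simpa using h1 0
      subst h2
      have h3 : (u : F) = v := by simpa using h1 1
      have h4 : u = v := Units.ext h3
      rw [h4]
    · rintro ⟨τ, a, b, h⟩
      refine ⟨(b, a), Subtype.ext (Equiv.ext fun y => ?_)⟩
      simp [f, hg, h]
  rw [← Nat.card_eq_of_bijective f hf, Nat.card_prod, Nat.card_units]

/-- The powers of `x ↦ a σ(x)`: the field automorphism part of the `k`-th power is `σ ^ k`. -/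
theorem lam_pow (τ : F ≃ₗ[ZMod p] F) (a : F) (ha : a ≠ 0) (σ : F ≃+* F) (h : ∀ x, τ x = a * σ x)
    (k : ℕ) : ∃ b : F, b ≠ 0 ∧ ∀ x, (τ ^ k) x = b * (σ ^ k) x := by
  induction k with
  | zero => exact ⟨1, one_ne_zero, fun x => by simp⟩
  | succ k ih =>
    obtain ⟨b, hb, hk⟩ := ih
    have h0 : (σ ^ k) a ≠ 0 := by
      intro h0
      exact ha ((map_eq_zero_iff (σ ^ k) (σ ^ k).injective).mp h0)
    refine ⟨b * (σ ^ k) a, mul_ne_zero hb h0, fun x => ?_⟩
    rw [pow_succ, LinearEquiv.mul_apply, hk, h, map_mul, mul_assoc, pow_succ]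
    rfl

end Cfsg.Agent.Lib.EqOrd
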