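import Mathlib
import Cfsg.Agent.Lib.EqOrd.Count
import Cfsg.Agent.Lib.EqOrd.Arith
import Cfsg.Agent.Lib.EqOrd.Semi
import Cfsg.Agent.Lib.EqOrd.Exc
import Cfsg.Agent.Lib.ChevAut.FieldCard
import Cfsg.Agent.Lib.Solvable.Product
import Cfsg.Agent.Lib.Solvable.Hall
import Cfsg.Agent.S3360

/-!
# Solvable groups transitive on subspaces of equal dimension
-/

set_option autoImplicit false
set_option linter.style.haveILetI false

namespace Cfsg.Agent.Lib.EqOrd

open scoped Pointwise

variable {p : ℕ} [hp : Fact p.Prime] {A : Type*} [AddCommGroup A] [Module (ZMod p) A] [Finite A]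

omit [Module (ZMod p) A] [Finite A] in
theorem card_smul' {Y : Type*} [Group Y] [DistribMulAction Y A] (τ : Y) (W : AddSubgroup A) :
    Nat.card (τ • W : AddSubgroup A) = Nat.card W := by
  symm
  refine Nat.card_congr
    { toFun := fun x => ⟨τ • x.1, AddSubgroup.smul_mem_pointwise_smul _ _ _ x.2⟩
      invFun := fun x => ⟨τ⁻¹ • x.1, ?_⟩
      left_inv := fun x => ?_
      right_inv := fun x => ?_ }
  · exact (AddSubgroup.mem_pointwise_smul_iff_inv_smul_mem).1 x.2
  · exact Subtype.ext (inv_smul_smul τ x.1)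
  · exact Subtype.ext (smul_inv_smul τ x.1)

instance finite_linE : Finite (A ≃ₗ[ZMod p] A) :=
  Finite.of_injective (fun τ : A ≃ₗ[ZMod p] A => (τ : A → A)) DFunLike.coe_injective

omit [Finite A] in
theorem mem_smul_iff' (τ : A ≃ₗ[ZMod p] A) (W : AddSubgroup A) (x : A) :
    x ∈ τ • W ↔ ∃ s ∈ W, τ s = x := by
  rw [AddSubgroup.mem_smul_pointwise_iff_exists]
  rfl

theorem orbit_count (X : Subgroup (A ≃ₗ[ZMod p] A)) (W₀ : AddSubgroup A) (h₀ : Nat.card W₀ = p ^ 2)
    (hT : ∀ W : AddSubgroup A, Nat.card W = p ^ 2 → ∃ τ ∈ X, τ • W₀ = W) :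
    Nat.card {W : AddSubgroup A // Nat.card W = p ^ 2} * Nat.card (MulAction.stabilizer X W₀) =
      Nat.card X := by
  rw [← Nat.card_congr (MulAction.orbitProdStabilizerEquivGroup X W₀), Nat.card_prod]
  congr 1
  apply Nat.card_congr
  refine Equiv.subtypeEquivRight fun W => ?_
  constructor
  · intro hW
    obtain ⟨τ, hτ, rfl⟩ := hT W hW
    exact ⟨⟨τ, hτ⟩, rfl⟩
  · rintro ⟨τ, rfl⟩
    show Nat.card ((τ : A ≃ₗ[ZMod p] A) • W₀ : AddSubgroup A) = _
    rw [card_smul', h₀]

section Scal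

variable {F : Type*} [Field F] [Algebra (ZMod p) F] [Finite F]

/-- Scalars of the prime field stabilize every additive subgroup, so `p - 1` divides the order of the
stabilizer in `ΓL(1, F)`. -/
theorem scal_dvd (W₀ : AddSubgroup F) :
    (p - 1) ∣ Nat.card (MulAction.stabilizer (Lam p F) W₀) := by
  classical
  let sc : (ZMod p)ˣ →* (F ≃ₗ[ZMod p] F) := DistribMulAction.toModuleAut (ZMod p) F
  have hsc : ∀ u x, sc u x = ((u : ZMod p)) • x := fun _ _ => rfl
  have hL : ∀ u, sc u ∈ Lam p F := by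
    intro u
    refine ⟨algebraMap (ZMod p) F u, ?_, RingEquiv.refl F, fun x => ?_⟩
    · intro h
      exact u.ne_zero ((map_eq_zero_iff _ (algebraMap (ZMod p) F).injective).mp h)
    · rw [hsc, Algebra.smul_def]
      rfl
  let φ : (ZMod p)ˣ →* Lam p F := (sc.codRestrict (Lam p F) hL)
  have hφ : Function.Injective φ := by
    intro u v h
    have h1 := congrArg (fun t : Lam p F => (t : F ≃ₗ[ZMod p] F) 1) h
    have h2 : ((u : ZMod p)) • (1 : F) = ((v : ZMod p)) • (1 : F) := h1
    rw [Algebra.smul_def, Algebra.smul_def, mul_one, mul_one] at h2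
    exact Units.ext ((algebraMap (ZMod p) F).injective h2)
  have hle : φ.range ≤ MulAction.stabilizer (Lam p F) W₀ := by
    rintro _ ⟨u, rfl⟩
    rw [MulAction.mem_stabilizer_iff]
    show ((φ u : Lam p F) : F ≃ₗ[ZMod p] F) • W₀ = W₀
    have h1 : ∀ (u : (ZMod p)ˣ), ∀ x ∈ W₀, sc u x ∈ W₀ := by
      intro u x hx
      rw [hsc, ← ZMod.natCast_zmod_val (u : ZMod p), Nat.cast_smul_eq_nsmul]
      exact W₀.nsmul_mem hx _
    apply AddSubgroup.eq_of_le_of_card_ge
    · intro x hx
      obtain ⟨s, hs, rfl⟩ := (mem_smul_iff' _ _ _).1 hx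
      exact h1 u s hs
    · rw [card_smul']
  have h1 := Subgroup.card_dvd_of_le hle
  have h2 : Nat.card φ.range = p - 1 := by
    rw [Nat.card_congr (MonoidHom.ofInjective hφ).toEquiv.symm, Nat.card_eq_fintype_card, ZMod.card_units]
  rwa [h2] at h1

end Scal

/-- The exceptional case of Huppert's theorem does not occur. -/
theorem no_exception (hcard : Nat.card A = 81) (hp3 : p = 3) (X : Subgroup (A ≃ₗ[ZMod p] A))
    [hX : Group.IsSolvable X]
    (hT : ∀ W₁ W₂ : AddSubgroup A, Nat.card W₁ = Nat.card W₂ → ∃ τ ∈ X, τ • W₁ = W₂) : False := by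
  classical
  have htor : ∀ a : A, p • a = 0 := fun a => ZModModule.char_nsmul_eq_zero p a
  have hc := count_eq (p := p) htor
  rw [hcard, hp3] at hc
  have hc0 : Nat.card {W : AddSubgroup A // Nat.card W = 3 ^ 2} = 130 := by
    have e1 : (3 ^ 2 - 1) * (3 ^ 2 - 3) = 48 := by norm_num
    have e2 : (81 - 1) * (81 - 3) = 6240 := by norm_num
    rw [e1, e2] at hc
    omega
  obtain ⟨W₀⟩ : Nonempty {W : AddSubgroup A // Nat.card W = p ^ 2} := by
    rw [hp3]
    apply (Nat.card_pos_iff.mp (by rw [hc0]; norm_num)).1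
  have h1 := orbit_count X W₀.1 W₀.2 (fun W hW => by
    obtain ⟨τ, hτ, h⟩ := hT W₀.1 W (by rw [W₀.2, hW])
    exact ⟨τ, hτ, h⟩)
  have h2 : Nat.card {W : AddSubgroup A // Nat.card W = p ^ 2} = 130 := by
    rw [hp3]
    exact hc0
  rw [h2] at h1
  have h130 : 130 ∣ Nat.card X := ⟨_, h1.symm⟩
  have hN : Nat.card X ≠ 0 := Nat.card_pos.ne'
  obtain ⟨m, n, hmn, hcop, hn65, hpr⟩ := Cfsg.Agent.Lib.Solvable.Product.exists_hallPart (Nat.card X) 65 hN
  obtain ⟨H, hH⟩ := Cfsg.Agent.Lib.Solvable.Hall.exists_card_eq (G := X) m n hmn hcop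
  have h5 : 5 ∣ m := by
    have h3 : 5 ∣ m * n := by
      rw [← hmn]
      exact (by norm_num : 5 ∣ 130).trans h130
    rcases (Nat.Prime.dvd_mul (by norm_num)).1 h3 with h | h
    · exact h
    · exfalso
      have h4 : 5 ∣ Nat.gcd n 65 := Nat.dvd_gcd h (by norm_num)
      rw [hn65] at h4
      omega
  have h13 : 13 ∣ m := by
    have h3 : 13 ∣ m * n := by
      rw [← hmn]
      exact (by norm_num : 13 ∣ 130).trans h130
    rcases (Nat.Prime.dvd_mul (by norm_num)).1 h3 with h | h
    · exact h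
    · exfalso
      have h4 : 13 ∣ Nat.gcd n 65 := Nat.dvd_gcd h (by norm_num)
      rw [hn65] at h4
      omega
  haveI : Group.IsSolvable H := Group.isSolvable_of_isSolvable_injective H.subtype_injective
  refine exc_core (A := A) (Y := H) hcard (by rw [hH]; exact h5) (by rw [hH]; exact h13) ?_
  intro r hr hrd
  rw [hH] at hrd
  have h3 := hpr r hr hrd
  have h4 : (65 : ℕ) = 5 * 13 := by norm_num
  rw [h4] at h3
  rcases (Nat.Prime.dvd_mul hr).1 h3 with h | h
  · exact Or.inl ((Nat.prime_dvd_prime_iff_eq hr (by norm_num)).1 h)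
  · exact Or.inr ((Nat.prime_dvd_prime_iff_eq hr (by norm_num)).1 h)

/-- **Solvable groups transitive on the subgroups of each order.** -/
theorem main_linear {n : ℕ} (hcard : Nat.card A = p ^ n) (hn : 3 ≤ n) (X : Subgroup (A ≃ₗ[ZMod p] A))
    [hX : Group.IsSolvable X]
    (hT : ∀ W₁ W₂ : AddSubgroup A, Nat.card W₁ = Nat.card W₂ → ∃ τ ∈ X, τ • W₁ = W₂) :
    ∃ e : A ≃+ GaloisField p n,
      (∀ τ ∈ X, ∃ a : GaloisField p n, a ≠ 0 ∧ ∃ σ : GaloisField p n ≃+* GaloisField p n,
        ∀ v, e (τ v) = a * σ (e v)) ∧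
      (n = 3 ∨ (n = 5 ∧ p = 2)) ∧
      (∃ c, c * ((p ^ 2 - 1) * (p ^ 2 - p)) = (p ^ n - 1) * (p ^ n - p) ∧ c ∣ Nat.card X) ∧
      Nat.card X ∣ (p ^ n - 1) * n := by
  classical
  have hn0 : n ≠ 0 := by omega
  have hp' : p.Prime := hp.out
  haveI : Nontrivial A := by
    apply Finite.one_lt_card_iff_nontrivial.mp
    rw [hcard]
    exact Nat.one_lt_pow hn0 hp'.one_lt
  -- the group with scalars
  let sc : (ZMod p)ˣ →* (A ≃ₗ[ZMod p] A) := DistribMulAction.toModuleAut (ZMod p) A
  have hsc : ∀ u x, sc u x = ((u : ZMod p)) • x := fun _ _ => rfl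
  have hcomm : ∀ (u : (ZMod p)ˣ) (τ : X), Commute (sc u) (X.subtype τ) := by
    intro u τ
    apply LinearEquiv.ext
    intro x
    show sc u ((τ : A ≃ₗ[ZMod p] A) x) = (τ : A ≃ₗ[ZMod p] A) (sc u x)
    rw [hsc, hsc, map_smul]
  let ψ : (ZMod p)ˣ × X →* (A ≃ₗ[ZMod p] A) := MonoidHom.noncommCoprod sc X.subtype hcomm
  have hψ : ∀ u (τ : X) x, ψ (u, τ) x = ((u : ZMod p)) • (τ : A ≃ₗ[ZMod p] A) x := fun _ _ _ => rfl
  haveI hG' : Group.IsSolvable ψ.range :=
    Group.isSolvable_of_surjective (f := ψ.rangeRestrict) ψ.rangeRestrict_surjective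
  have htor : ∀ a : A, p • a = 0 := fun a => ZModModule.char_nsmul_eq_zero p a
  have htrans : ∀ v w : A, v ≠ 0 → w ≠ 0 → ∃ g : ψ.range, ψ.range.subtype g v = w := by
    intro v w hv hw
    obtain ⟨τ, hτ, hτW⟩ := hT (AddSubgroup.zmultiples v) (AddSubgroup.zmultiples w) (by
      rw [card_zmultiples_eq (p := p) htor hv, card_zmultiples_eq (p := p) htor hw])
    have h1 : τ v ∈ AddSubgroup.zmultiples w := by
      rw [← hτW, mem_smul_iff']
      exact ⟨v, AddSubgroup.mem_zmultiples v, rfl⟩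
    obtain ⟨k, hk⟩ := AddSubgroup.mem_zmultiples_iff.mp h1
    have hk0 : (k : ZMod p) ≠ 0 := by
      intro h0
      have h2 : k • w = 0 := by
        rw [← Int.cast_smul_eq_zsmul (ZMod p) k w, h0, zero_smul]
      rw [hk] at h2
      exact hv ((map_eq_zero_iff τ τ.injective).mp h2)
    let u : (ZMod p)ˣ := Units.mk0 _ hk0
    refine ⟨⟨ψ (u⁻¹, ⟨τ, hτ⟩), _, rfl⟩, ?_⟩
    show ψ (u⁻¹, ⟨τ, hτ⟩) v = w
    rw [hψ]
    show (((u⁻¹ : (ZMod p)ˣ) : ZMod p)) • τ v = w
    rw [← hk, ← Int.cast_smul_eq_zsmul (ZMod p) k w, smul_smul]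
    have h3 : (((u⁻¹ : (ZMod p)ˣ) : ZMod p)) * (k : ZMod p) = 1 := by
      have : (u : ZMod p) = (k : ZMod p) := rfl
      rw [← this]
      exact Units.inv_mul u
    rw [h3, one_smul]
  have hres := Cfsg.Agent.S3360.result p (G := ψ.range) hG' ψ.range.subtype
    ψ.range.subtype_injective htrans
  rcases hres with ⟨F, iF, fF, e, he⟩ | hex
  · have hF0 : Nat.card (GaloisField p n) ≠ 0 := by
      rw [GaloisField.card p n hn0]
      exact pow_ne_zero _ hp'.ne_zero
    haveI fin𝔽 : Finite (GaloisField p n) := Nat.finite_of_card_ne_zero hF0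
    letI fty𝔽 : Fintype (GaloisField p n) := Fintype.ofFinite _
    have hcF : Nat.card F = p ^ n := by
      rw [← Nat.card_congr e.toEquiv, hcard]
    haveI : CharP F p := by
      rw [CharP.charP_iff_prime_eq_zero hp']
      have h1 : e (p • e.symm 1) = 0 := by
        rw [htor, map_zero]
      rw [map_nsmul, AddEquiv.apply_symm_apply] at h1
      simpa using h1
    let ψ₀ : F ≃+* GaloisField p n := FiniteField.ringEquivOfCardEq (by
      rw [← Nat.card_eq_fintype_card, ← Nat.card_eq_fintype_card, hcF, GaloisField.card p n hn0])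
    let e' : A ≃+ GaloisField p n := e.trans ψ₀.toAddEquiv
    have he' : ∀ v, e' v = ψ₀ (e v) := fun _ => rfl
    have hform : ∀ τ ∈ X, ∃ a : GaloisField p n, a ≠ 0 ∧ ∃ σ : GaloisField p n ≃+* GaloisField p n,
        ∀ v, e' (τ v) = a * σ (e' v) := by
      intro τ hτ
      obtain ⟨a, σ, h⟩ := he ⟨ψ (1, ⟨τ, hτ⟩), _, rfl⟩
      have h1 : ∀ v, ψ.range.subtype ⟨ψ (1, ⟨τ, hτ⟩), _, rfl⟩ v = τ v := by
        intro v
        show ψ (1, ⟨τ, hτ⟩) v = τ v
        rw [hψ]
        simp
      have h2 : ∀ v, e (τ v) = a * σ (e v) := fun v => by rw [← h1, h]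
      have ha : a ≠ 0 := by
        rintro rfl
        obtain ⟨v, hv⟩ := exists_ne (0 : A)
        have h3 := h2 v
        rw [zero_mul] at h3
        exact hv ((map_eq_zero_iff τ τ.injective).mp ((map_eq_zero_iff e e.injective).mp h3))
      refine ⟨ψ₀ a, (map_ne_zero_iff _ ψ₀.injective).mpr ha, ψ₀.symm.trans (σ.trans ψ₀), fun v => ?_⟩
      rw [he', h2, map_mul, he']
      congr 1
      simp
    refine ⟨e', hform, ?_⟩
    have htor𝔽 : ∀ a : GaloisField p n, p • a = 0 := fun a => ZModModule.char_nsmul_eq_zero p a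
    have hcount := count_eq (p := p) htor𝔽
    rw [GaloisField.card p n hn0] at hcount
    have hpn : p < p ^ n := by
      calc p = p ^ 1 := (pow_one p).symm
        _ < p ^ n := Nat.pow_lt_pow_right hp'.one_lt (by omega)
    obtain ⟨W₀⟩ : Nonempty {W : AddSubgroup (GaloisField p n) // Nat.card W = p ^ 2} := by
      apply (Nat.card_pos_iff.mp ?_).1
      apply Nat.pos_of_ne_zero
      intro h0
      rw [h0, zero_mul] at hcount
      have h1 : 0 < (p ^ n - 1) * (p ^ n - p) :=
        Nat.mul_pos (by have := hp'.two_le; omega) (by omega)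
      omega
    -- conjugation by `e'`
    let κ : (A ≃ₗ[ZMod p] A) →* (GaloisField p n ≃ₗ[ZMod p] GaloisField p n) :=
      { toFun := fun τ => toLinE (p := p) (e'.symm.trans (τ.toAddEquiv.trans e'))
        map_one' := by
          apply LinearEquiv.ext
          intro x
          show e' (e'.symm x) = x
          simp
        map_mul' := fun τ τ' => by
          apply LinearEquiv.ext
          intro x
          show e' (τ (τ' (e'.symm x))) = e' (τ (e'.symm (e' (τ' (e'.symm x)))))
          simp }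
    have hκ : ∀ τ x, κ τ x = e' (τ (e'.symm x)) := fun _ _ => rfl
    have hκinj : Function.Injective κ := by
      intro τ τ' h
      apply LinearEquiv.ext
      intro x
      have h1 := congrArg (fun t : GaloisField p n ≃ₗ[ZMod p] GaloisField p n => t (e' x)) h
      simp only [hκ, AddEquiv.symm_apply_apply] at h1
      exact e'.injective h1
    have hκL : X.map κ ≤ Lam p (GaloisField p n) := by
      rintro _ ⟨τ, hτ, rfl⟩
      obtain ⟨a, ha, σ, h⟩ := hform τ hτ
      refine ⟨a, ha, σ, fun x => ?_⟩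
      show κ τ x = _
      rw [hκ, h]
      simp
    have hcomap : ∀ W : AddSubgroup (GaloisField p n),
        Nat.card (W.comap e'.toAddMonoidHom) = Nat.card W := by
      intro W
      refine Nat.card_congr
        { toFun := fun x => ⟨e' x.1, x.2⟩
          invFun := fun x => ⟨e'.symm x.1, ?_⟩
          left_inv := fun x => Subtype.ext (e'.symm_apply_apply x.1)
          right_inv := fun x => Subtype.ext (e'.apply_symm_apply x.1) }
      show e' (e'.symm x.1) ∈ W
      rw [e'.apply_symm_apply]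
      exact x.2
    have hTr : ∀ W : AddSubgroup (GaloisField p n), Nat.card W = p ^ 2 →
        ∃ τ ∈ X.map κ, τ • W₀.1 = W := by
      intro W hW
      obtain ⟨τ, hτ, h⟩ := hT (W₀.1.comap e'.toAddMonoidHom) (W.comap e'.toAddMonoidHom) (by
        rw [hcomap, hcomap, W₀.2, hW])
      refine ⟨κ τ, ⟨τ, hτ, rfl⟩, ?_⟩
      ext x
      rw [mem_smul_iff']
      constructor
      · rintro ⟨s, hs, rfl⟩
        rw [hκ]
        have h1 : τ (e'.symm s) ∈ W.comap e'.toAddMonoidHom := by
          rw [← h, mem_smul_iff']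
          refine ⟨e'.symm s, ?_, rfl⟩
          show e' (e'.symm s) ∈ W₀.1
          rw [e'.apply_symm_apply]
          exact hs
        exact h1
      · intro hx
        have h1 : e'.symm x ∈ W.comap e'.toAddMonoidHom := by
          show e' (e'.symm x) ∈ W
          rw [e'.apply_symm_apply]
          exact hx
        rw [← h, mem_smul_iff'] at h1
        obtain ⟨s, hs, hs2⟩ := h1
        refine ⟨e' s, hs, ?_⟩
        rw [hκ, e'.symm_apply_apply, hs2, e'.apply_symm_apply]
    have horb := orbit_count (X.map κ) W₀.1 W₀.2 hTr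
    have horb2 := orbit_count (Lam p (GaloisField p n)) W₀.1 W₀.2 (fun W hW => by
      obtain ⟨τ, hτ, h⟩ := hTr W hW
      exact ⟨τ, hκL hτ, h⟩)
    obtain ⟨k, hk⟩ := scal_dvd (p := p) W₀.1
    have hcardL : Nat.card (Lam p (GaloisField p n)) = (p ^ n - 1) * n := by
      rw [card_lam, GaloisField.card p n hn0]
      congr 1
      exact Cfsg.Agent.Lib.ChevAut.FieldCard.card_aut p n (by
        rw [← Nat.card_eq_fintype_card, GaloisField.card p n hn0])
    have hcardX : Nat.card (X.map κ) = Nat.card X :=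
      Subgroup.card_map_of_injective hκinj
    refine ⟨?_, ⟨_, hcount, ?_⟩, ?_⟩
    · apply arith hp' hn hcount (k := k)
      rw [← hcardL, ← horb2, hk, mul_assoc]
    · rw [← hcardX, ← horb]
      exact dvd_mul_right _ _
    · rw [← hcardX, ← hcardL]
      exact Subgroup.card_dvd_of_le hκL
  · exfalso
    have key : ∀ r k : ℕ, r.Prime → p ^ n = r ^ k → p = r ∧ n = k := by
      intro r k hr h
      have h1 : p ∣ r ^ k := by
        rw [← h]
        exact dvd_pow_self p hn0
      have h2 : p = r := (Nat.prime_dvd_prime_iff_eq hp' hr).1 (hp'.dvd_of_dvd_pow h1)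
      subst h2
      exact ⟨rfl, Nat.pow_right_injective hp'.two_le h⟩
    rw [hcard] at hex
    simp only [Set.mem_insert_iff, Set.mem_singleton_iff] at hex
    rcases hex with h | h | h | h | h | h
    · have := (key 3 2 (by norm_num) (by rw [h]; norm_num)).2
      omega
    · have := (key 5 2 (by norm_num) (by rw [h]; norm_num)).2
      omega
    · have := (key 7 2 (by norm_num) (by rw [h]; norm_num)).2
      omega
    · have := (key 11 2 (by norm_num) (by rw [h]; norm_num)).2
      omega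
    · have := (key 23 2 (by norm_num) (by rw [h]; norm_num)).2
      omega
    · have h2 := (key 3 4 (by norm_num) (by rw [h]; norm_num)).1
      exact no_exception (by rw [hcard, h]) h2 X hT

end Cfsg.Agent.Lib.EqOrd
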