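import Mathlib
import Cfsg.Agent.Lib.EqOrd.Linear
import Cfsg.Agent.Lib.Solvable.Carter
import Cfsg.Prelude.Def_Perm
import Cfsg.Prelude.Def_Solvable
import Cfsg.Prelude.Def_CaseTheorems

/-!
# Assembling the affine action
-/

set_option autoImplicit false
set_option linter.style.haveILetI false

namespace Cfsg.Agent.Lib.EqOrd

open scoped Pointwise

section Assemble

variable {Γ : Type*} [Group Γ] [Finite Γ] {p : ℕ} [hp : Fact p.Prime] {n : ℕ}
  {A : Type*} [AddCommGroup A] [Module (ZMod p) A] [Finite A]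

/-- The structure of `Γ ⧸ K` as a group of affine transformations. -/
theorem exists_affine
    (ι : Multiplicative A →* Γ) (hι : Function.Injective ι)
    (ρ : Γ →* (A ≃ₗ[ZMod p] A))
    (hρ : ∀ g a, ι (Multiplicative.ofAdd (ρ g a)) = g * ι (Multiplicative.ofAdd a) * g⁻¹)
    (hcard : Nat.card A = p ^ n) (hn : n ≠ 0)
    (hcop : ¬ p ∣ ι.range.index)
    (e : A ≃+ GaloisField p n)
    (hform : ∀ τ ∈ ρ.range, ∃ a : GaloisField p n, a ≠ 0 ∧ ∃ σ : GaloisField p n ≃+* GaloisField p n,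
        ∀ v, e (τ v) = a * σ (e v)) :
    ∃ T : Γ →* Equiv.Perm (GaloisField p n),
      (∀ g, T g ∈ Cfsg.semiaffineGroup (GaloisField p n)) ∧
      (∀ g, T g = 1 ↔ g ∈ Cfsg.pPrimeCore p Γ) ∧
      (∀ g, ∃ b, ∀ x, T g x = b + e (ρ g (e.symm x))) ∧
      Nat.card (Γ ⧸ Cfsg.pPrimeCore p Γ) = p ^ n * Nat.card ρ.range := by
  classical
  have hp' : p.Prime := hp.out
  set K := Cfsg.pPrimeCore p Γ with hKdef
  haveI hKn : K.Normal := Cfsg.pPrimeCore_normal p Γ
  have hKc : (Nat.card K).Coprime p := Cfsg.Agent.Lib.Solvable.Carter.card_pPrimeCore_coprime p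
  set Q := ι.range with hQdef
  haveI hQn : Q.Normal := by
    constructor
    rintro _ ⟨a, rfl⟩ g
    exact ⟨Multiplicative.ofAdd (ρ g (Multiplicative.toAdd a)), hρ g _⟩
  have hQc : Nat.card Q = p ^ n := by
    rw [Nat.card_congr (MonoidHom.ofInjective hι).toEquiv.symm]
    exact hcard
  -- `Q` acts trivially
  have hρQ : ∀ a : Multiplicative A, ρ (ι a) = 1 := by
    intro a
    apply LinearEquiv.ext
    intro b
    apply Multiplicative.ofAdd.injective
    apply hι
    rw [hρ, (Commute.all a (Multiplicative.ofAdd b)).map ι |>.eq, mul_inv_cancel_right]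
    rfl
  -- `K` meets `Q` trivially
  have hKQ : K ⊓ Q = ⊥ := by
    rw [eq_bot_iff]
    intro x hx
    obtain ⟨hx1, hx2⟩ := Subgroup.mem_inf.mp hx
    have h1 : orderOf x ∣ Nat.card K := by
      have := orderOf_dvd_natCard (⟨x, hx1⟩ : K)
      rwa [Subgroup.orderOf_mk] at this
    have h2 : orderOf x ∣ p ^ n := by
      have := orderOf_dvd_natCard (⟨x, hx2⟩ : Q)
      rwa [Subgroup.orderOf_mk, hQc] at this
    have h3 : Nat.Coprime (Nat.card K) (p ^ n) := Nat.Coprime.pow_right n hKc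
    have h4 := Nat.eq_one_of_dvd_coprimes h3 h1 h2
    exact orderOf_eq_one_iff.mp h4 ▸ Subgroup.one_mem _
  -- `K` acts trivially
  have hρK : ∀ k ∈ K, ρ k = 1 := by
    intro k hk
    apply LinearEquiv.ext
    intro b
    apply Multiplicative.ofAdd.injective
    apply hι
    rw [hρ]
    set x := ι (Multiplicative.ofAdd b) with hx
    have hxQ : x ∈ Q := ⟨_, rfl⟩
    have h1 : k * x * k⁻¹ * x⁻¹ ∈ K ⊓ Q := by
      refine Subgroup.mem_inf.mpr ⟨?_, ?_⟩
      · have : k * x * k⁻¹ * x⁻¹ = k * (x * k⁻¹ * x⁻¹) := by group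
        rw [this]
        exact K.mul_mem hk (hKn.conj_mem _ (K.inv_mem hk) x)
      · exact Q.mul_mem (hQn.conj_mem _ hxQ k) (Q.inv_mem hxQ)
    rw [hKQ, Subgroup.mem_bot] at h1
    have h2 : k * x * k⁻¹ = x := by
      rwa [mul_inv_eq_one] at h1
    exact h2
  -- the complement
  have hcop2 : Nat.Coprime (Nat.card Q) Q.index := by
    rw [hQc]
    exact Nat.Coprime.pow_left n ((Nat.Prime.coprime_iff_not_dvd hp').2 hcop)
  obtain ⟨L, hL⟩ := Subgroup.exists_right_complement'_of_coprime hcop2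
  have hcardΓ : Nat.card Q * Nat.card L = Nat.card Γ := hL.card_mul_card
  have hLc : Nat.Coprime (Nat.card L) p := by
    rw [← hL.symm.index_eq_card]
    exact ((Nat.Prime.coprime_iff_not_dvd hp').2 hcop).symm
  -- `K` lies in `L`
  have hKL : K ≤ L := by
    have h1 := Cfsg.Agent.Lib.Solvable.Hall.card_sup_mul_card_inf L K
    have h2 : Nat.card (L ⊔ K : Subgroup Γ) ∣ Nat.card L * Nat.card K := ⟨_, h1.symm⟩
    have h3 : Nat.Coprime (Nat.card (L ⊔ K : Subgroup Γ)) p :=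
      Nat.Coprime.coprime_dvd_left h2 (Nat.Coprime.mul_left hLc hKc)
    have h4 : Nat.card (L ⊔ K : Subgroup Γ) ∣ Nat.card Q * Nat.card L := by
      rw [hcardΓ]
      exact Subgroup.card_subgroup_dvd_card _
    have h5 : Nat.Coprime (Nat.card (L ⊔ K : Subgroup Γ)) (Nat.card Q) := by
      rw [hQc]
      exact Nat.Coprime.pow_right n h3
    have h6 := h5.dvd_of_dvd_mul_left h4
    have h7 : L = L ⊔ K :=
      Subgroup.eq_of_le_of_card_ge le_sup_left (Nat.le_of_dvd Nat.card_pos h6)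
    rw [h7]
    exact le_sup_right
  -- the kernel of `ρ` on `L`
  have hcent : ∀ g, ρ g = 1 → ∀ a : Multiplicative A, g * ι a = ι a * g := by
    intro g hg a
    have h1 := hρ g (Multiplicative.toAdd a)
    rw [hg] at h1
    have h2 : ι (Multiplicative.ofAdd ((1 : A ≃ₗ[ZMod p] A) (Multiplicative.toAdd a))) = ι a := rfl
    rw [h2] at h1
    rw [eq_mul_inv_iff_mul_eq] at h1
    exact h1.symm
  have hLker : ∀ l ∈ L, ρ l = 1 → l ∈ K := by
    have hN : (L ⊓ ρ.ker).Normal := by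
      constructor
      intro l hl g
      obtain ⟨hl1, hl2⟩ := Subgroup.mem_inf.mp hl
      obtain ⟨⟨⟨_, a, rfl⟩, ⟨l₀, hl₀⟩⟩, hg, -⟩ := hL.existsUnique g
      have hg' : ι a * l₀ = g := hg
      subst hg'
      have hρ1 : ρ (l₀ * l * l₀⁻¹) = 1 := by
        rw [map_mul, map_mul, MonoidHom.mem_ker.mp hl2, mul_one, map_inv, mul_inv_cancel]
      have h1 : ι a * l₀ * l * (ι a * l₀)⁻¹ = l₀ * l * l₀⁻¹ := by
        have h2 := hcent _ hρ1 a
        calc ι a * l₀ * l * (ι a * l₀)⁻¹ = ι a * (l₀ * l * l₀⁻¹) * (ι a)⁻¹ := by group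
          _ = (l₀ * l * l₀⁻¹) * ι a * (ι a)⁻¹ := by rw [h2]
          _ = l₀ * l * l₀⁻¹ := by group
      rw [h1]
      exact Subgroup.mem_inf.mpr ⟨L.mul_mem (L.mul_mem hl₀ hl1) (L.inv_mem hl₀), hρ1⟩
    have hc : (Nat.card (L ⊓ ρ.ker : Subgroup Γ)).Coprime p := by
      have h1 : Nat.card (L ⊓ ρ.ker : Subgroup Γ) ∣ Nat.card L := Subgroup.card_dvd_of_le inf_le_left
      exact Nat.Coprime.coprime_dvd_left h1 hLc
    intro l hl hl1
    exact Cfsg.Agent.Lib.Solvable.Carter.le_pPrimeCore hN hc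
      (Subgroup.mem_inf.mpr ⟨hl, MonoidHom.mem_ker.mpr hl1⟩)
  -- decomposition
  have hdec : ∀ g : Γ, ∃ (u : A) (l : Γ), l ∈ L ∧ ι (Multiplicative.ofAdd u) * l = g := by
    intro g
    obtain ⟨⟨⟨_, a, rfl⟩, ⟨l₀, hl₀⟩⟩, hg, -⟩ := hL.existsUnique g
    exact ⟨Multiplicative.toAdd a, l₀, hl₀, hg⟩
  have huniq : ∀ (u₁ u₂ : A) (l₁ l₂ : Γ), l₁ ∈ L → l₂ ∈ L →
      ι (Multiplicative.ofAdd u₁) * l₁ = ι (Multiplicative.ofAdd u₂) * l₂ → u₁ = u₂ ∧ l₁ = l₂ := by
    intro u₁ u₂ l₁ l₂ h₁ h₂ h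
    have h3 : ((⟨ι (Multiplicative.ofAdd u₁), _, rfl⟩ : Q), (⟨l₁, h₁⟩ : L)) =
        ((⟨ι (Multiplicative.ofAdd u₂), _, rfl⟩ : Q), (⟨l₂, h₂⟩ : L)) := hL.1 h
    have h4 := congrArg (fun x : Q × L => ((x.1 : Γ))) h3
    have h5 := congrArg (fun x : Q × L => ((x.2 : Γ))) h3
    exact ⟨Multiplicative.ofAdd.injective (hι h4), h5⟩
  choose u l hlL hul using hdec
  have hρl : ∀ g, ρ (l g) = ρ g := by
    intro g
    conv_rhs => rw [← hul g]
    rw [map_mul, hρQ, one_mul]
  have hu : ∀ g h, u (g * h) = u g + ρ g (u h) := by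
    intro g h
    have h1 : ι (Multiplicative.ofAdd (u g + ρ g (u h))) * (l g * l h) = g * h := by
      rw [ofAdd_add, map_mul, ← hρl g, hρ]
      calc ι (Multiplicative.ofAdd (u g)) * (l g * ι (Multiplicative.ofAdd (u h)) * (l g)⁻¹) * (l g * l h)
          = (ι (Multiplicative.ofAdd (u g)) * l g) * (ι (Multiplicative.ofAdd (u h)) * l h) := by group
        _ = g * h := by rw [hul, hul]
    exact (huniq _ _ _ _ (hlL _) (L.mul_mem (hlL g) (hlL h)) ((hul (g * h)).trans h1.symm)).1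
  -- the map
  let T' : Γ → Equiv.Perm (GaloisField p n) := fun g =>
    e.symm.toEquiv.trans ((ρ g).toEquiv.trans (e.toEquiv.trans (Equiv.addLeft (e (u g)))))
  have hT' : ∀ g x, T' g x = e (u g) + e (ρ g (e.symm x)) := fun _ _ => rfl
  have hmul : ∀ g h, T' (g * h) = T' g * T' h := by
    intro g h
    ext x
    rw [Equiv.Perm.mul_apply, hT', hT', hT']
    simp only [hu, map_add, map_mul, LinearEquiv.mul_apply, AddEquiv.symm_apply_apply, add_assoc]
  let T : Γ →* Equiv.Perm (GaloisField p n) := MonoidHom.mk' T' hmul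
  have hTT : ∀ g x, T g x = e (u g) + e (ρ g (e.symm x)) := hT'
  refine ⟨T, ?_, ?_, fun g => ⟨e (u g), hT' g⟩, ?_⟩
  · intro g
    obtain ⟨a, ha, σ, h⟩ := hform (ρ g) ⟨g, rfl⟩
    refine ⟨Units.mk0 a ha, e (u g), σ, fun x => ?_⟩
    rw [hTT, h, AddEquiv.apply_symm_apply, add_comm]
    rfl
  · intro g
    constructor
    · intro h1
      have h0 : u g = 0 := by
        have h2 : T g 0 = 0 := by rw [h1]; rfl
        rw [hTT] at h2
        simpa using h2
      have h3 : ρ g = 1 := by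
        apply LinearEquiv.ext
        intro v
        have h2 : T g (e v) = e v := by rw [h1]; rfl
        rw [hTT, h0, AddEquiv.symm_apply_apply, map_zero, zero_add] at h2
        exact e.injective h2
      have h4 : l g = g := by
        have h2 := hul g
        rw [h0] at h2
        simpa using h2
      apply hLker g _ h3
      rw [← h4]
      exact hlL g
    · intro hg
      have h0 : u g = 0 := by
        have h2 : ι (Multiplicative.ofAdd (u g)) * l g = ι (Multiplicative.ofAdd 0) * g := by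
          rw [hul]
          simp
        exact (huniq _ _ _ _ (hlL g) (hKL hg) h2).1
      ext x
      rw [hTT, h0, hρK g hg]
      simp
  · have hker : ρ.ker = Q ⊔ K := by
      apply le_antisymm
      · intro g hg
        rw [← hul g]
        apply Subgroup.mul_mem
        · exact (le_sup_left : Q ≤ Q ⊔ K) ⟨_, rfl⟩
        · apply (le_sup_right : K ≤ Q ⊔ K)
          apply hLker _ (hlL g)
          rw [hρl]
          exact MonoidHom.mem_ker.mp hg
      · apply sup_le
        · rintro _ ⟨a, rfl⟩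
          exact MonoidHom.mem_ker.mpr (hρQ a)
        · intro k hk
          exact MonoidHom.mem_ker.mpr (hρK k hk)
    have h1 := Cfsg.Agent.Lib.Solvable.Hall.card_sup_mul_card_inf Q K
    have h2 : Q ⊓ K = ⊥ := by rw [inf_comm]; exact hKQ
    rw [h2, Subgroup.card_bot, mul_one, ← hker] at h1
    have h3 := Subgroup.card_mul_index ρ.ker
    rw [Subgroup.index_ker, h1] at h3
    have h4 := Subgroup.card_mul_index K
    have h5 : Nat.card (Γ ⧸ K) = K.index := rfl
    rw [h5, hQc.symm]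
    apply Nat.eq_of_mul_eq_mul_left (Nat.card_pos (α := K))
    rw [h4, ← h3]
    ring

/-- The `p'`-core acts trivially. -/
theorem rho_core
    (ι : Multiplicative A →* Γ) (hι : Function.Injective ι)
    (ρ : Γ →* (A ≃ₗ[ZMod p] A))
    (hρ : ∀ g a, ι (Multiplicative.ofAdd (ρ g a)) = g * ι (Multiplicative.ofAdd a) * g⁻¹)
    (hcard : Nat.card A = p ^ n) : ∀ k ∈ Cfsg.pPrimeCore p Γ, ρ k = 1 := by
  classical
  set K := Cfsg.pPrimeCore p Γ with hKdef
  haveI hKn : K.Normal := Cfsg.pPrimeCore_normal p Γ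
  have hKc : (Nat.card K).Coprime p := Cfsg.Agent.Lib.Solvable.Carter.card_pPrimeCore_coprime p
  set Q := ι.range with hQdef
  haveI hQn : Q.Normal := by
    constructor
    rintro _ ⟨a, rfl⟩ g
    exact ⟨Multiplicative.ofAdd (ρ g (Multiplicative.toAdd a)), hρ g _⟩
  have hQc : Nat.card Q = p ^ n := by
    rw [Nat.card_congr (MonoidHom.ofInjective hι).toEquiv.symm]
    exact hcard
  have hKQ : K ⊓ Q = ⊥ := by
    rw [eq_bot_iff]
    intro x hx
    obtain ⟨hx1, hx2⟩ := Subgroup.mem_inf.mp hx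
    have h1 : orderOf x ∣ Nat.card K := by
      have := orderOf_dvd_natCard (⟨x, hx1⟩ : K)
      rwa [Subgroup.orderOf_mk] at this
    have h2 : orderOf x ∣ p ^ n := by
      have := orderOf_dvd_natCard (⟨x, hx2⟩ : Q)
      rwa [Subgroup.orderOf_mk, hQc] at this
    have h3 : Nat.Coprime (Nat.card K) (p ^ n) := Nat.Coprime.pow_right n hKc
    have h4 := Nat.eq_one_of_dvd_coprimes h3 h1 h2
    exact orderOf_eq_one_iff.mp h4 ▸ Subgroup.one_mem _
  intro k hk
  apply LinearEquiv.ext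
  intro b
  apply Multiplicative.ofAdd.injective
  apply hι
  rw [hρ]
  set x := ι (Multiplicative.ofAdd b) with hx
  have hxQ : x ∈ Q := ⟨_, rfl⟩
  have h1 : k * x * k⁻¹ * x⁻¹ ∈ K ⊓ Q := by
    refine Subgroup.mem_inf.mpr ⟨?_, ?_⟩
    · have : k * x * k⁻¹ * x⁻¹ = k * (x * k⁻¹ * x⁻¹) := by group
      rw [this]
      exact K.mul_mem hk (hKn.conj_mem _ (K.inv_mem hk) x)
    · exact Q.mul_mem (hQn.conj_mem _ hxQ k) (Q.inv_mem hxQ)
  rw [hKQ, Subgroup.mem_bot] at h1
  have h2 : k * x * k⁻¹ = x := by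
    rwa [mul_inv_eq_one] at h1
  exact h2

/-- The semilinear powers. -/
theorem semi_pow {F : Type*} [Field F] (e : A ≃+ F) (τ : A ≃ₗ[ZMod p] A) (a : F) (ha : a ≠ 0) (σ : F ≃+* F)
    (h : ∀ v, e (τ v) = a * σ (e v)) (k : ℕ) :
    ∃ b : F, b ≠ 0 ∧ ∀ v, e ((τ ^ k) v) = b * (σ ^ k) (e v) := by
  induction k with
  | zero => exact ⟨1, one_ne_zero, fun x => by simp⟩
  | succ k ih =>
    obtain ⟨b, hb, hk⟩ := ih
    have h0 : (σ ^ k) a ≠ 0 := by
      intro h0
      exact ha ((map_eq_zero_iff (σ ^ k) (σ ^ k).injective).mp h0)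
    refine ⟨b * (σ ^ k) a, mul_ne_zero hb h0, fun x => ?_⟩
    rw [pow_succ, LinearEquiv.mul_apply, hk, h, map_mul, mul_assoc, pow_succ]
    rfl

/-- **The theorem at the level of the normalizer.** -/
theorem main_gamma
    (ι : Multiplicative A →* Γ) (hι : Function.Injective ι)
    (ρ : Γ →* (A ≃ₗ[ZMod p] A))
    (hρ : ∀ g a, ι (Multiplicative.ofAdd (ρ g a)) = g * ι (Multiplicative.ofAdd a) * g⁻¹)
    (hcard : Nat.card A = p ^ n) (hn : 3 ≤ n)
    (hcop : ¬ p ∣ ι.range.index)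
    (hT : ∀ W₁ W₂ : AddSubgroup A, Nat.card W₁ = Nat.card W₂ → ∃ g : Γ, ρ g • W₁ = W₂)
    (hsolv : Group.IsSolvable (Γ ⧸ Cfsg.pPrimeCore p Γ)) :
    (n = 3 ∧ (∃ f : Γ ⧸ Cfsg.pPrimeCore p Γ →* ↥(Cfsg.semiaffineGroup (GaloisField p 3)), Function.Injective f) ∧
      (p = 2 → Nonempty (Γ ⧸ Cfsg.pPrimeCore p Γ ≃* Cfsg.semiaffineGroup (GaloisField 2 3)) ∨
               Nonempty (Γ ⧸ Cfsg.pPrimeCore p Γ ≃* Cfsg.affineGroup (GaloisField 2 3)))) ∨
    (n = 5 ∧ p = 2 ∧ Nonempty (Γ ⧸ Cfsg.pPrimeCore p Γ ≃* Cfsg.semiaffineGroup (GaloisField 2 5))) := by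
  classical
  have hp' : p.Prime := hp.out
  have hn0 : n ≠ 0 := by omega
  haveI hKn : (Cfsg.pPrimeCore p Γ).Normal := Cfsg.pPrimeCore_normal p Γ
  have hKρ := rho_core ι hι ρ hρ hcard
  haveI hX : Group.IsSolvable ρ.range :=
    Group.isSolvable_of_surjective
      (f := QuotientGroup.lift (Cfsg.pPrimeCore p Γ) ρ.rangeRestrict (fun k hk => Subtype.ext (hKρ k hk)))
      (by
        rintro ⟨_, g, rfl⟩
        exact ⟨QuotientGroup.mk g, rfl⟩)
  obtain ⟨e, hform, hnn, ⟨c, hc, hcd⟩, hXd⟩ := main_linear hcard hn ρ.range (fun W₁ W₂ h => by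
    obtain ⟨g, hg⟩ := hT W₁ W₂ h
    exact ⟨ρ g, ⟨g, rfl⟩, hg⟩)
  obtain ⟨T, hTs, hTk, hTf, hcQ⟩ := exists_affine ι hι ρ hρ hcard hn0 hcop e hform
  have hF0 : Nat.card (GaloisField p n) = p ^ n := GaloisField.card p n hn0
  haveI fin𝔽 : Finite (GaloisField p n) := Nat.finite_of_card_ne_zero (by
    rw [hF0]; exact pow_ne_zero _ hp'.ne_zero)
  letI fty𝔽 : Fintype (GaloisField p n) := Fintype.ofFinite _
  have hAut : Nat.card (GaloisField p n ≃+* GaloisField p n) = n :=
    Cfsg.Agent.Lib.ChevAut.FieldCard.card_aut p n (by rw [← Nat.card_eq_fintype_card, hF0])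
  -- a general way to build an injective map
  have hliftinj : ∀ (S : Subgroup (Equiv.Perm (GaloisField p n))) (hS : ∀ g, T g ∈ S),
      ∃ f : Γ ⧸ Cfsg.pPrimeCore p Γ →* S, Function.Injective f := by
    intro S hS
    refine ⟨QuotientGroup.lift (Cfsg.pPrimeCore p Γ) (T.codRestrict S hS)
      (fun k hk => Subtype.ext ((hTk k).2 hk)), ?_⟩
    intro a b
    induction a using QuotientGroup.induction_on with
    | H g =>
      induction b using QuotientGroup.induction_on with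
      | H h =>
        intro hab
        have h1 : T g = T h := congrArg Subtype.val hab
        rw [QuotientGroup.eq, ← hTk, map_mul, map_inv, h1, inv_mul_cancel]
  rcases hnn with rfl | ⟨rfl, rfl⟩
  · left
    refine ⟨rfl, hliftinj _ hTs, fun hp2 => ?_⟩
    subst hp2
    have hc7 : c = 7 := by
      norm_num at hc
      omega
    have h7 : 7 ∣ Nat.card ρ.range := hc7 ▸ hcd
    have h21 : Nat.card ρ.range ∣ 21 := by
      have e1 : (2 ^ 3 - 1) * 3 = 21 := by norm_num
      rwa [e1] at hXd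
    have hX' : Nat.card ρ.range = 7 ∨ Nat.card ρ.range = 21 := by
      obtain ⟨m, hm⟩ := h7
      rw [hm] at h21
      have hm3 : m ∣ 3 := Nat.dvd_of_mul_dvd_mul_left (by norm_num : 0 < 7) (by simpa using h21)
      have := (Nat.dvd_prime Nat.prime_three).1 hm3
      rcases this with rfl | rfl
      · exact Or.inl (by simpa using hm)
      · exact Or.inr (by simpa using hm)
    rcases hX' with hX7 | hX21
    · right
      have hS : ∀ g, T g ∈ Cfsg.affineGroup (GaloisField 2 3) := by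
        intro g
        obtain ⟨a, ha, σ, h⟩ := hform (ρ g) ⟨g, rfl⟩
        have h1 : (ρ g) ^ 7 = 1 := by
          have h2 := pow_card_eq_one' (G := ρ.range) (x := ⟨ρ g, g, rfl⟩)
          rw [hX7] at h2
          exact congrArg Subtype.val h2
        obtain ⟨b, hb, hpow⟩ := semi_pow e (ρ g) a ha σ h 7
        rw [h1] at hpow
        have h2 : ∀ v, e v = b * (σ ^ 7) (e v) := hpow
        have hb1 : b = 1 := by
          have h3 := h2 (e.symm 1)
          rw [AddEquiv.apply_symm_apply, map_one, mul_one] at h3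
          exact h3.symm
        have h3 : σ ^ 7 = 1 := by
          ext x
          have h4 := h2 (e.symm x)
          rw [AddEquiv.apply_symm_apply, hb1, one_mul] at h4
          exact h4.symm
        have h4 : σ ^ 3 = 1 := by
          have h5 := pow_card_eq_one' (x := σ)
          rwa [hAut] at h5
        have h5 : σ = 1 := by
          calc σ = (σ ^ 3) ^ 2 * σ ^ (7 - 6) * (σ ^ 0) := by simp [h4]
            _ = σ ^ 7 := by
              rw [← pow_mul, ← pow_add, ← pow_add]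
            _ = 1 := h3
        obtain ⟨b', hb'⟩ := hTf g
        refine ⟨Units.mk0 a ha, b', fun x => ?_⟩
        rw [hb', h, AddEquiv.apply_symm_apply, h5, add_comm]
        rfl
      obtain ⟨f, hf⟩ := hliftinj _ hS
      refine ⟨MulEquiv.ofBijective f (hf.bijective_of_nat_card_le ?_)⟩
      rw [Cfsg.Agent.Lib.EqOrd.card_affine, hcQ, hX7, hF0]
      norm_num
    · left
      obtain ⟨f, hf⟩ := hliftinj _ hTs
      refine ⟨MulEquiv.ofBijective f (hf.bijective_of_nat_card_le ?_)⟩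
      rw [Cfsg.Agent.Lib.EqOrd.card_semiaffine, hcQ, hX21, hF0, hAut]
      norm_num
  · right
    refine ⟨rfl, rfl, ?_⟩
    have hc155 : c = 155 := by
      norm_num at hc
      omega
    have hXd' : Nat.card ρ.range ∣ 155 := by
      have e1 : (2 ^ 5 - 1) * 5 = 155 := by norm_num
      rwa [e1] at hXd
    have hX155 : Nat.card ρ.range = 155 := Nat.dvd_antisymm hXd' (hc155 ▸ hcd)
    obtain ⟨f, hf⟩ := hliftinj _ hTs
    refine ⟨MulEquiv.ofBijective f (hf.bijective_of_nat_card_le ?_)⟩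
    rw [Cfsg.Agent.Lib.EqOrd.card_semiaffine, hcQ, hX155, hF0, hAut]
    norm_num

end Assemble

end Cfsg.Agent.Lib.EqOrd
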